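import Mathlib
import Cfsg.Agent.Lib.Helper35.JR.Defs
import Cfsg.Agent.Lib.Helper31.OutCount
import Cfsg.Agent.Lib.Helper43.AutPSL2.Basic

/-!
# Project JR (S3206): package [FODD]

If the Sylow 2-subgroups of `PSL₂(F)` have exponent 2 (`|F| = p ^ f` odd), then `f` is odd, so
`Aut(F)` (of order `f`) has no nontrivial 2-elements.
-/

set_option autoImplicit false

namespace Cfsg.Agent.Lib.Helper71.JR

universe u

/-- An odd number to an even power is `1` modulo `8`. -/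
theorem eight_dvd_pow_sub_one_jr_h71 {p f : ℕ} (hp : Odd p) (hf : Even f) : 8 ∣ p ^ f - 1 := by
  obtain ⟨m, rfl⟩ := hf
  have h1 : (p ^ m) % 2 = 1 := Nat.odd_iff.mp hp.pow
  have h2 : (p ^ m) ^ 2 % 8 = 1 := by
    have h8 : (p ^ m) % 8 = 1 ∨ (p ^ m) % 8 = 3 ∨ (p ^ m) % 8 = 5 ∨ (p ^ m) % 8 = 7 := by omega
    rw [Nat.pow_mod]
    rcases h8 with h | h | h | h <;> simp [h]
  have h3 : p ^ (m + m) = (p ^ m) ^ 2 := by rw [← pow_mul, mul_two]
  rw [h3]
  omega

/-- The diagonal elements multiply. -/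
theorem hm_mul_jr_h71 {F : Type u} [Field F] (u v : Fˣ) :
    Cfsg.Agent.Lib.Helper43.AutPSL2.hm u * Cfsg.Agent.Lib.Helper43.AutPSL2.hm v =
      Cfsg.Agent.Lib.Helper43.AutPSL2.hm (u * v) := by
  apply Subtype.ext
  rw [Matrix.SpecialLinearGroup.coe_mul]
  simp only [Cfsg.Agent.Lib.Helper43.AutPSL2.hm_coe]
  ext i j
  fin_cases i <;> fin_cases j <;> simp [Matrix.mul_apply, Fin.sum_univ_two, mul_comm]

theorem hm_one_jr_h71 {F : Type u} [Field F] :
    Cfsg.Agent.Lib.Helper43.AutPSL2.hm (1 : Fˣ) = 1 := by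
  apply Subtype.ext
  simp only [Cfsg.Agent.Lib.Helper43.AutPSL2.hm_coe]
  ext i j
  fin_cases i <;> fin_cases j <;> simp

theorem hm_pow_jr_h71 {F : Type u} [Field F] (u : Fˣ) (n : ℕ) :
    Cfsg.Agent.Lib.Helper43.AutPSL2.hm u ^ n = Cfsg.Agent.Lib.Helper43.AutPSL2.hm (u ^ n) := by
  induction n with
  | zero => rw [pow_zero, pow_zero, hm_one_jr_h71]
  | succ n ih => rw [pow_succ, pow_succ, ih, hm_mul_jr_h71]

/-- `pm (hm u) = 1` forces `u ^ 2 = 1`. -/
theorem sq_eq_one_of_pm_hm_eq_one_jr_h71 {F : Type u} [Field F] (u : Fˣ)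
    (h : Cfsg.Agent.Lib.Helper43.AutPSL2.pm (Cfsg.Agent.Lib.Helper43.AutPSL2.hm u) = 1) :
    u ^ 2 = 1 := by
  have h' : Cfsg.Agent.Lib.Helper43.AutPSL2.pm (Cfsg.Agent.Lib.Helper43.AutPSL2.hm u) =
      Cfsg.Agent.Lib.Helper43.AutPSL2.pm 1 := by rw [h, map_one]
  rcases (Cfsg.Agent.Lib.Helper43.AutPSL2.pm_eq_iff _ _).mp h' with h1 | h1
  · have h00 := congrFun (congrFun h1 0) 0
    simp at h00
    apply Units.ext
    rw [Units.val_pow_eq_pow_val, h00]
    simp
  · have h00 := congrFun (congrFun h1 0) 0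
    simp at h00
    apply Units.ext
    rw [Units.val_pow_eq_pow_val, h00]
    simp

/-- **[FODD]**. -/
theorem pkgFodd : Cfsg.Agent.Lib.Helper35.JR.PkgFodd.{u} := by
  intro F _ _ hodd hexp σ k hσ
  classical
  obtain ⟨p, hchar, n, hp, hF⟩ := FiniteField.card' F
  have hfact : Fact p.Prime := ⟨hp⟩
  have hpodd : Odd p := by
    rw [hF] at hodd
    by_contra hcon
    rw [Nat.not_odd_iff_even] at hcon
    have : Even (p ^ (n : ℕ)) := (Nat.even_pow.mpr ⟨hcon, n.ne_zero⟩)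
    exact (Nat.not_odd_iff_even.mpr this) hodd
  -- the exponent is odd
  have hfodd : Odd (n : ℕ) := by
    by_contra hcon
    rw [Nat.not_odd_iff_even] at hcon
    have h8 : 8 ∣ p ^ (n : ℕ) - 1 := eight_dvd_pow_sub_one_jr_h71 hpodd hcon
    have hcardU : Nat.card Fˣ = p ^ (n : ℕ) - 1 := by
      rw [Nat.card_eq_fintype_card, Fintype.card_units, hF]
    obtain ⟨g, hg⟩ := IsCyclic.exists_generator (α := Fˣ)
    have hog : orderOf g = p ^ (n : ℕ) - 1 := by
      rw [orderOf_eq_card_of_forall_mem_zpowers hg, hcardU]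
    obtain ⟨c, hc⟩ := h8
    have hcpos : 0 < c := by
      rcases Nat.eq_zero_or_pos c with h0 | h0
      · exfalso
        have hpos : 0 < orderOf g := orderOf_pos g
        rw [hog, hc, h0] at hpos
        simp at hpos
      · exact h0
    set w : Fˣ := g ^ c with hw
    have hw8 : w ^ 8 = 1 := by
      rw [hw, ← pow_mul, mul_comm, ← hc, ← hog, pow_orderOf_eq_one]
    have hw4 : w ^ 4 ≠ 1 := by
      intro h4
      rw [hw, ← pow_mul] at h4
      have hdvd := orderOf_dvd_of_pow_eq_one h4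
      rw [hog, hc] at hdvd
      have hle := Nat.le_of_dvd (by positivity) hdvd
      omega
    set x : Matrix.ProjectiveSpecialLinearGroup (Fin 2) F :=
      Cfsg.Agent.Lib.Helper43.AutPSL2.pm (Cfsg.Agent.Lib.Helper43.AutPSL2.hm w) with hx
    have hx8 : x ^ 8 = 1 := by
      rw [hx, ← map_pow, hm_pow_jr_h71, hw8, hm_one_jr_h71, map_one]
    have hx2 : x ^ 2 ≠ 1 := by
      intro h2
      rw [hx, ← map_pow, hm_pow_jr_h71] at h2
      have := sq_eq_one_of_pm_hm_eq_one_jr_h71 _ h2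
      rw [← pow_mul] at this
      exact hw4 this
    have hpg : IsPGroup 2 (Subgroup.zpowers x) := by
      have hd : orderOf x ∣ 2 ^ 3 := orderOf_dvd_of_pow_eq_one (by norm_num; exact hx8)
      obtain ⟨j, -, hj⟩ := (Nat.dvd_prime_pow Nat.prime_two).mp hd
      exact IsPGroup.of_card (n := j) (by rw [Nat.card_zpowers, hj])
    obtain ⟨Q, hQ⟩ := hpg.exists_le_sylow
    exact hx2 (hexp Q x (hQ (Subgroup.mem_zpowers x)))
  -- the order of `σ` divides `f` and `2 ^ k`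
  have hcard : Nat.card (F ≃+* F) = (n : ℕ) :=
    Cfsg.Agent.Lib.Helper31.card_ringAut_of_card p n hF
  have h1 : orderOf σ ∣ (n : ℕ) := by
    have := orderOf_dvd_natCard σ
    rwa [show Nat.card (RingAut F) = (n : ℕ) from hcard] at this
  have h2 : orderOf σ ∣ 2 ^ k := orderOf_dvd_of_pow_eq_one hσ
  have hcop : Nat.Coprime (2 ^ k) (n : ℕ) :=
    Nat.Coprime.pow_left k (Nat.coprime_two_left.mpr hfodd)
  have h3 : orderOf σ ∣ 1 := by
    have := Nat.dvd_gcd h2 h1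
    rwa [hcop] at this
  exact orderOf_eq_one_iff.mp (Nat.dvd_one.mp h3)

end Cfsg.Agent.Lib.Helper71.JR
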